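import Cfsg.Agent.H697.OneClass

/-!
# Groups with at most two classes of nontrivial `p`-elements: basic facts
-/

set_option autoImplicit false
set_option linter.style.haveILetI false

universe u

namespace Cfsg.Agent.H649.ThreeCls

open Subgroup
open Cfsg.Agent.H697.Pk
open Cfsg.Agent.Lib.MinNormalNonabelian Cfsg.Agent.Lib.MinNormal

/-- All nontrivial `p`-elements lie in two conjugacy classes. -/
def Two (p : ℕ) (G : Type*) [Group G] : Prop :=
  ∃ x y : G, ∀ z : G, z ≠ 1 → (∃ k : ℕ, orderOf z = p ^ k) → IsConj x z ∨ IsConj y z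

theorem two_of_card {p : ℕ} {G : Type*} [Group G]
    (h3 : Nat.card {c : ConjClasses G // ∃ g : G, ConjClasses.mk g = c ∧ ∃ k : ℕ, orderOf g = p ^ k} = 3) :
    Two p G := by
  classical
  set S : Set (ConjClasses G) := {c | ∃ g : G, ConjClasses.mk g = c ∧ ∃ k : ℕ, orderOf g = p ^ k} with hS
  have h3' : S.ncard = 3 := by
    rw [← Nat.card_coe_set_eq]
    exact h3
  obtain ⟨a, b, c, -, -, -, habc⟩ := Set.ncard_eq_three.1 h3'
  have key : ∀ b c : ConjClasses G, S = {ConjClasses.mk (1 : G), b, c} → Two p G := by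
    intro b c hbc
    obtain ⟨x, rfl⟩ := ConjClasses.mk_surjective b
    obtain ⟨y, rfl⟩ := ConjClasses.mk_surjective c
    refine ⟨x, y, fun z hz hzk => ?_⟩
    have h1 : ConjClasses.mk z ∈ S := ⟨z, rfl, hzk⟩
    rw [hbc] at h1
    rcases h1 with h1 | h1 | h1
    · exact absurd (isConj_one_left.1 (ConjClasses.mk_eq_mk_iff_isConj.1 h1)) hz
    · exact Or.inl (ConjClasses.mk_eq_mk_iff_isConj.1 h1).symm
    · exact Or.inr (ConjClasses.mk_eq_mk_iff_isConj.1 (Set.mem_singleton_iff.1 h1)).symm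
  have h1 : ConjClasses.mk (1 : G) ∈ S := ⟨1, rfl, 0, by rw [orderOf_one, pow_zero]⟩
  rw [habc] at h1
  rcases h1 with h1 | h1 | h1
  · exact key b c (by rw [habc, h1])
  · exact key a c (by rw [habc, h1, Set.insert_comm])
  · rw [Set.mem_singleton_iff] at h1
    exact key a b (by
      rw [habc, h1]
      ext w
      simp only [Set.mem_insert_iff, Set.mem_singleton_iff]
      tauto)

theorem Two.map {p : ℕ} [Fact p.Prime] {G Q : Type*} [Group G] [Group Q] [Finite G] (h : Two p G) (f : G →* Q)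
    (hf : Function.Surjective f) : Two p Q := by
  obtain ⟨x, y, h⟩ := h
  refine ⟨f x, f y, fun z hz hzk => ?_⟩
  obtain ⟨g, rfl, hg⟩ := Cfsg.Agent.H697.PSolvA.exists_lift_pow f hf hzk
  have hg1 : g ≠ 1 := by
    rintro rfl
    exact hz (map_one f)
  rcases h g hg1 hg with h1 | h1
  · obtain ⟨c, hc⟩ := isConj_iff.1 h1
    exact Or.inl (isConj_iff.2 ⟨f c, by rw [← hc, map_mul, map_mul, map_inv]⟩)
  · obtain ⟨c, hc⟩ := isConj_iff.1 h1
    exact Or.inr (isConj_iff.2 ⟨f c, by rw [← hc, map_mul, map_mul, map_inv]⟩)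

theorem Two.conj {p : ℕ} {G : Type*} [Group G] (h : Two p G) {a b c : G}
    (ha : a ≠ 1) (hb : b ≠ 1) (hc : c ≠ 1) (hka : ∃ k : ℕ, orderOf a = p ^ k)
    (hkb : ∃ k : ℕ, orderOf b = p ^ k) (hkc : ∃ k : ℕ, orderOf c = p ^ k) (hab : ¬ IsConj a b)
    (hac : ¬ IsConj a c) : IsConj b c := by
  obtain ⟨x, y, h⟩ := h
  rcases h a ha hka with h1 | h1 <;> rcases h b hb hkb with h2 | h2 <;>
    rcases h c hc hkc with h3 | h3 <;> first
    | exact absurd (h1.symm.trans h2) hab
    | exact absurd (h1.symm.trans h3) hac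
    | exact h2.symm.trans h3

/-- a subgroup of index at most two has at most twice as many classes of `p`-regular elements -/
theorem card_le_two_mul {p : ℕ} {G : Type*} [Group G] [Finite G] (H : Subgroup G) (g₀ : G)
    (hH : ∀ g : G, g ∈ H ∨ g₀⁻¹ * g ∈ H) (hn : ∀ h ∈ H, g₀ * h * g₀⁻¹ ∈ H) :
    Nat.card (PReg p H) ≤ 2 * Nat.card (PReg p G) := by
  classical
  have := Fintype.ofFinite (PReg p H)
  have := Fintype.ofFinite (PReg p G)
  let f : PReg p H → PReg p G := mapReg H.subtype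
  have h1 : ∀ c ∈ (Finset.univ : Finset (PReg p G)),
      (Finset.univ.filter fun a : PReg p H => f a = c).card ≤ 2 := by
    intro c _
    rcases (Finset.univ.filter fun a : PReg p H => f a = c).eq_empty_or_nonempty with h0 | ⟨a, ha⟩
    · rw [h0, Finset.card_empty]; exact Nat.zero_le _
    · have hfa : f a = c := (Finset.mem_filter.1 ha).2
      obtain ⟨_, h, rfl, hh⟩ := a
      have hh2 : ¬ p ∣ orderOf (⟨g₀ * h * g₀⁻¹, hn h h.2⟩ : H) := by
        rw [← Subgroup.orderOf_coe]
        have h5 : orderOf (g₀ * (h : G) * g₀⁻¹) = orderOf (h : G) := (MulAut.conj g₀).orderOf_eq (h : G)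
        show ¬ p ∣ orderOf (g₀ * (h : G) * g₀⁻¹)
        rw [h5, Subgroup.orderOf_coe]
        exact hh
      refine (Finset.card_le_card (t := {mkReg h hh, mkReg ⟨g₀ * h * g₀⁻¹, hn h h.2⟩ hh2}) ?_).trans
        (Finset.card_le_two)
      intro b hb
      have hfb : f b = c := (Finset.mem_filter.1 hb).2
      obtain ⟨_, k, rfl, hk⟩ := b
      have h6 := congrArg Subtype.val (hfa.trans hfb.symm)
      have h7 : IsConj (h : G) (k : G) := ConjClasses.mk_eq_mk_iff_isConj.1 h6
      obtain ⟨g, hg⟩ := isConj_iff.1 h7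
      refine Finset.mem_insert.2 ?_
      rcases hH g with hgH | hgH
      · left
        apply Subtype.ext
        show ConjClasses.mk k = ConjClasses.mk h
        rw [ConjClasses.mk_eq_mk_iff_isConj, isConj_comm]
        exact isConj_iff.2 ⟨⟨g, hgH⟩, Subtype.ext hg⟩
      · right
        refine Finset.mem_singleton.2 ?_
        apply Subtype.ext
        show ConjClasses.mk k = ConjClasses.mk (⟨g₀ * h * g₀⁻¹, hn h h.2⟩ : H)
        rw [ConjClasses.mk_eq_mk_iff_isConj, isConj_comm]
        have h8 : g * g₀⁻¹ ∈ H := by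
          have := hn _ hgH
          rwa [mul_inv_cancel_left] at this
        refine isConj_iff.2 ⟨⟨g * g₀⁻¹, h8⟩, Subtype.ext ?_⟩
        show g * g₀⁻¹ * (g₀ * h * g₀⁻¹) * (g * g₀⁻¹)⁻¹ = k
        rw [← hg]
        group
  have h2 := Finset.card_le_mul_card_image_of_maps_to
    (s := (Finset.univ : Finset (PReg p H))) (t := (Finset.univ : Finset (PReg p G)))
    (f := f) (fun a _ => Finset.mem_univ _) 2 h1
  rw [Finset.card_univ, Finset.card_univ, ← Nat.card_eq_fintype_card, ← Nat.card_eq_fintype_card] at h2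
  exact h2

end Cfsg.Agent.H649.ThreeCls
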