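import Cfsg.Agent.H649.ThreeMain

/-!
# `2 k_{p'}(G) ≥ p` when `G` is not `p`-solvable and has at most two classes of nontrivial `p`-elements;
S4882 from S4881, S4883, S4760, S1937
-/

set_option autoImplicit false
set_option linter.style.haveILetI false

universe u

namespace Cfsg.Agent.H649.ThreeCls

open Subgroup
open Cfsg.Agent.H697.Pk Cfsg.Agent.H697.OneClass
open Cfsg.Agent.Lib.MinNormalNonabelian Cfsg.Agent.Lib.MinNormal

variable {G : Type u} [Group G] [Finite G] {p : ℕ} [hp : Fact p.Prime]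

theorem core_ge (h1 : RowNC.{u} p) (h2 : RowIM.{u} p) (hGr : p ≠ 2 → Gross.{u} p)
    (hns : ¬ Cfsg.IsPSolvable p G) (hcore : Cfsg.pPrimeCore p G = ⊥) (h : Two p G) :
    p ≤ 2 * Nat.card (PReg p G) := by
  classical
  have hp' : p.Prime := hp.out
  by_cases hpc : Cfsg.pCore p G = ⊥
  swap
  · have := pcore_case h1 h2 hns hpc h
    omega
  have hdiv : p ∣ Nat.card G := by
    by_contra h
    exact hns (isPSolvable_of_not_dvd h)
  have : Nontrivial G := by
    rw [← Finite.one_lt_card_iff_nontrivial]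
    exact lt_of_lt_of_le hp'.one_lt (Nat.le_of_dvd Nat.card_pos hdiv)
  have hcp : ∀ K : Subgroup G, K.Normal → K ≠ ⊥ → p ∣ Nat.card K := by
    intro K hK hK0
    by_contra h
    apply hK0
    rw [eq_bot_iff, ← hcore]
    apply Lib.Cores.le_pPrimeCore hK
    rw [Nat.coprime_comm]
    exact (Nat.Prime.coprime_iff_not_dvd hp').2 h
  obtain ⟨N, hN, hN0, hmin⟩ := Lib.SubnormalJoin.exists_minimal_normal G
  have hna : ¬ ∀ x ∈ N, ∀ y ∈ N, Commute x y := by
    intro hab
    obtain ⟨r, hr, hrN, -⟩ := abelian_structure N hN0 hmin hab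
    have : Fact r.Prime := ⟨hr⟩
    have h1 := hcp N hN hN0
    obtain ⟨m, hm⟩ := IsPGroup.iff_card.1 hrN
    rw [hm] at h1
    have h2 : p = r := (Nat.prime_dvd_prime_iff_eq hp' hr).1 (hp'.dvd_of_dvd_pow h1)
    subst h2
    apply hN0
    rw [eq_bot_iff, ← hpc]
    exact Lib.Cores.le_pCore hN hrN
  obtain ⟨⟨T, hT⟩, hind, hsup, hsimple, hcent, htrans⟩ := nonabelian_structure N hmin hna
  have hcomm : ∀ S ∈ minSet N, ∀ R ∈ minSet N, S ≠ R → ∀ x ∈ S, ∀ y ∈ R, Commute x y := by
    intro S hS R hR hne x hx y hy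
    exact commute_of_mem hind (fun S hS => hS.2.2.1) (fun S hS => hS.1) hS hR hne hx hy
  have hdT : ∀ R ∈ minSet N, p ∣ Nat.card R := by
    intro R hR
    by_contra h
    apply hR.2.1
    have h1 : (R.subgroupOf N).Normal := by
      rw [Subgroup.normal_subgroupOf_iff_le_normalizer hR.1]
      exact hR.2.2.1
    have h2 : (Nat.card (R.subgroupOf N)).Coprime p := by
      rw [Nat.card_congr (Subgroup.subgroupOfEquivOfLe hR.1).toEquiv, Nat.coprime_comm]
      exact (Nat.Prime.coprime_iff_not_dvd hp').2 h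
    have h3 := Lib.Cores.le_pPrimeCore h1 h2
    have h4 : (R.subgroupOf N).map N.subtype ≤ (Cfsg.pPrimeCore p N).map N.subtype :=
      Subgroup.map_mono h3
    rw [Subgroup.map_subgroupOf_eq_of_le hR.1, Lib.Cores.map_subtype_pPrimeCore p hN, hcore,
      inf_bot_eq] at h4
    exact le_bot_iff.1 h4
  have C : Comps p N := ⟨hsup, hsimple, hcent, htrans, hcomm, hdT⟩
  by_cases hone : ∃ S ∈ minSet N, T ≠ S
  · obtain ⟨S, hS, hTS⟩ := hone
    exact C.two_ge h h1 h2 hT hS hTS
  push Not at hone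
  have hNT : N = T := by
    rw [← hsup]
    apply le_antisymm
    · apply sSup_le
      intro S hS
      rw [← hone S hS]
    · exact le_sSup hT
  have hTn : T.Normal := hNT ▸ hN
  have hTs : IsSimpleGroup T := hsimple T hT
  -- the centraliser
  let K : Subgroup G := Subgroup.centralizer (T : Set G)
  have hKn : K.Normal := inferInstance
  have hK : K = ⊥ := by
    by_contra hK0
    obtain ⟨x, hxT, hx⟩ := exists_order (hdT T hT)
    obtain ⟨c, hcK, hc⟩ := exists_order (hcp K hKn hK0)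
    have hx1 := ne_one_of_order hx hp'
    have hc1 := ne_one_of_order hc hp'
    have hKT : ∀ z, z ∈ K → z ∈ T → z = 1 := fun z hzK hzT =>
      hcent T hT z hzT fun t ht => ((Subgroup.mem_centralizer_iff.1 hzK) t ht).symm
    have hcT : c ∉ T := fun h0 => hc1 (hKT c hcK h0)
    have hxK : x ∉ K := fun h0 => hx1 (hKT x h0 hxT)
    have hxc : Commute x c := (Subgroup.mem_centralizer_iff.1 hcK) x hxT
    have hxcT : x * c ∉ T := fun h0 => hcT (by
      have := T.mul_mem (T.inv_mem hxT) h0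
      rwa [inv_mul_cancel_left] at this)
    have hxcK : x * c ∉ K := fun h0 => hxK (by
      have := K.mul_mem h0 (K.inv_mem hcK)
      rwa [mul_inv_cancel_right] at this)
    have hxc1 : x * c ≠ 1 := fun h0 => hxcT (h0 ▸ T.one_mem)
    have c1 : ¬ IsConj x c := by
      intro h0
      obtain ⟨g, rfl⟩ := isConj_iff.1 h0
      exact hcT (hTn.conj_mem x hxT g)
    have c2 : ¬ IsConj x (x * c) := by
      intro h0
      obtain ⟨g, hg⟩ := isConj_iff.1 h0
      exact hxcT (hg ▸ hTn.conj_mem x hxT g)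
    obtain ⟨g, hg⟩ := isConj_iff.1 (h.conj hx1 hc1 hxc1 ⟨1, by rw [pow_one]; exact hx⟩
      ⟨1, by rw [pow_one]; exact hc⟩ (order_mul hx hc hxc hxc1 hp') c1 c2)
    exact hxcK (hg ▸ hKn.conj_mem c hcK g)
  refine single h1 h2 hGr T (hcent T hT) ?_ (hdT T hT) h
  intro g hg
  have h1 : g ∈ K := Subgroup.mem_centralizer_iff.2 (fun t ht => ((hg t ht).symm : Commute t g))
  rw [hK] at h1
  exact h1

theorem ge (h1 : RowNC.{u} p) (h2 : RowIM.{u} p) (hGr : p ≠ 2 → Gross.{u} p)
    (hns : ¬ Cfsg.IsPSolvable p G) (h : Two p G) : p ≤ 2 * Nat.card (PReg p G) := by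
  have hf : Function.Surjective (QuotientGroup.mk' (Cfsg.pPrimeCore p G)) :=
    QuotientGroup.mk'_surjective _
  refine le_trans ?_ (Nat.mul_le_mul_left 2 (card_le_of_surjective (QuotientGroup.mk' (Cfsg.pPrimeCore p G)) hf))
  apply core_ge h1 h2 hGr
  · intro h
    exact hns (Lib.PSolvable.IsPSolvable_of_quotient p (Cfsg.pPrimeCore p G)
      (Or.inr (Lib.Cores.pPrimeCore_coprime p)) h)
  · exact Lib.Cores.pPrimeCore_quotient_pPrimeCore p
  · exact h.map _ hf

/-- the type of S4881 -/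
def PSolvRow (p : ℕ) : Prop :=
  ∀ (G : Type u) [Group G] [Finite G], Cfsg.IsPSolvable p G →
    Nat.card {c : ConjClasses G // ∃ g : G, ConjClasses.mk g = c ∧ ∃ k : ℕ, orderOf g = p ^ k} = 3 →
    p - 1 ≤ 2 * Nat.card {c : ConjClasses G // ∃ g : G, ConjClasses.mk g = c ∧ ¬ p ∣ orderOf g} ∧
      (2 * Nat.card {c : ConjClasses G // ∃ g : G, ConjClasses.mk g = c ∧ ¬ p ∣ orderOf g} = p - 1 ↔
        (p ≠ 2 ∧ 2 * Nat.card G = p * (p - 1) ∧ ∃ f : G →* ↥(Cfsg.affineGroup (ZMod p)), Function.Injective f))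

theorem pSolvable_of_card (hp2 : p ≠ 2) (hG : 2 * Nat.card G = p * (p - 1)) : Cfsg.IsPSolvable p G := by
  have hp' := hp.out
  obtain ⟨P⟩ : Nonempty (Sylow p G) := inferInstance
  obtain ⟨a, ha⟩ := (IsPGroup.iff_card).1 P.isPGroup'
  have hidx : Nat.card (P : Subgroup G) * (P : Subgroup G).index = Nat.card G := Subgroup.card_mul_index _
  have hni := P.not_dvd_index
  have hdvd : p ∣ Nat.card G := by
    have h1 : p ∣ 2 * Nat.card G := by rw [hG]; exact dvd_mul_right _ _
    rcases (hp'.dvd_mul).1 h1 with h2 | h2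
    · exact absurd ((Nat.prime_dvd_prime_iff_eq hp' Nat.prime_two).1 h2) hp2
    · exact h2
  have hle : (P : Subgroup G).index ≤ p - 1 := by
    have h1 : p ∣ Nat.card (P : Subgroup G) := P.dvd_card_of_dvd_card hdvd
    obtain ⟨c, hc⟩ := h1
    have hc0 : 0 < c := by
      rcases Nat.eq_zero_or_pos c with h0 | h0
      · rw [h0, mul_zero] at hc
        exact absurd hc Nat.card_pos.ne'
      · exact h0
    have h2 : p * (2 * (c * (P : Subgroup G).index)) = p * (p - 1) := by
      rw [← hG, ← hidx, hc]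
      ring
    have h3 := Nat.eq_of_mul_eq_mul_left hp'.pos h2
    have h4 : (P : Subgroup G).index ≤ c * (P : Subgroup G).index := Nat.le_mul_of_pos_left _ hc0
    omega
  have hn : (P : Subgroup G).Normal := by
    have h1 : Nat.card (Sylow p G) ≡ 1 [MOD p] := card_sylow_modEq_one p G
    have h2 : Nat.card (Sylow p G) ∣ (P : Subgroup G).index := P.card_dvd_index
    have h3 := Nat.le_of_dvd (Nat.pos_of_ne_zero Subgroup.index_ne_zero_of_finite) h2
    have h4 : Nat.card (Sylow p G) = 1 := by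
      have h5 := hp'.two_le
      have h6 : Nat.card (Sylow p G) % p = 1 % p := h1
      rwa [Nat.mod_eq_of_lt (by omega), Nat.mod_eq_of_lt (by omega)] at h6
    have : Subsingleton (Sylow p G) := (Nat.card_eq_one_iff_unique.1 h4).1
    exact P.normal_of_subsingleton
  exact Lib.PSolvable.IsPSolvable_of_quotient p (P : Subgroup G) (Or.inl ⟨a, ha⟩)
    (isPSolvable_of_not_dvd (by rw [← Subgroup.index_eq_card]; exact hni))

/-- **S4882 from its inputs** -/
theorem final (h0 : PSolvRow.{u} p) (h1 : RowNC.{u} p) (h2 : RowIM.{u} p) (hGr : p ≠ 2 → Gross.{u} p)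
    (h3 : Nat.card {c : ConjClasses G // ∃ g : G, ConjClasses.mk g = c ∧ ∃ k : ℕ, orderOf g = p ^ k} = 3) :
    p - 1 ≤ 2 * Nat.card {c : ConjClasses G // ∃ g : G, ConjClasses.mk g = c ∧ ¬ p ∣ orderOf g} ∧
      (2 * Nat.card {c : ConjClasses G // ∃ g : G, ConjClasses.mk g = c ∧ ¬ p ∣ orderOf g} = p - 1 ↔
        (p ≠ 2 ∧ 2 * Nat.card G = p * (p - 1) ∧ ∃ f : G →* ↥(Cfsg.affineGroup (ZMod p)), Function.Injective f)) := by
  by_cases hs : Cfsg.IsPSolvable p G
  · exact h0 G hs h3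
  have hg : p ≤ 2 * Nat.card {c : ConjClasses G // ∃ g : G, ConjClasses.mk g = c ∧ ¬ p ∣ orderOf g} :=
    ge h1 h2 hGr hs (two_of_card h3)
  have hp1 := hp.out.one_lt
  refine ⟨by omega, ?_⟩
  constructor
  · intro h
    omega
  · rintro ⟨hp2, hG, -, -⟩
    exact absurd (pSolvable_of_card hp2 hG) hs

end Cfsg.Agent.H649.ThreeCls
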